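import Mathlib
import Cfsg.Agent.Lib.Helper49.RUW.Defs
import Cfsg.Agent.Lib.Helper46.Dihedral

/-!
RUW (S3174), package [DIH] (helper6): `T / C_T(Z₃)` is dihedral of order 8.
-/

set_option autoImplicit false

namespace Cfsg.Agent.Lib.Helper6.RUW

open Cfsg.Agent.Lib.Helper49.RUW

universe u

variable {T : Type u} [Group T]

/-- `H ≤ K`, `|K| = 2 |H|`, `x ∈ K \ H`: every `k ∈ K` lies in `H` or in `x H`. -/
theorem mem_or_of_card_two_mul [Finite T] {H K : Subgroup T} (hHK : H ≤ K)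
    (hc : Nat.card K = 2 * Nat.card H) {x : T} (hxK : x ∈ K) (hxH : x ∉ H) :
    ∀ k ∈ K, k ∈ H ∨ x⁻¹ * k ∈ H := by
  have hidx : (H.subgroupOf K).index = 2 := by
    have h1 := Subgroup.card_mul_index (H.subgroupOf K)
    have h2 : Nat.card (H.subgroupOf K) = Nat.card H :=
      Nat.card_congr (Subgroup.subgroupOfEquivOfLe hHK).toEquiv
    rw [h2, hc] at h1
    have hpos : 0 < Nat.card H := Nat.card_pos
    have h3 : Nat.card ↥H * (H.subgroupOf K).index = Nat.card ↥H * 2 := by rw [h1]; ring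
    exact Nat.eq_of_mul_eq_mul_left hpos h3
  intro k hk
  by_cases hkH : k ∈ H
  · exact Or.inl hkH
  · right
    have h := Subgroup.mul_mem_iff_of_index_two hidx
      (a := (⟨x⁻¹, K.inv_mem hxK⟩ : K)) (b := (⟨k, hk⟩ : K))
    have ha : ¬ ((⟨x⁻¹, K.inv_mem hxK⟩ : K) ∈ H.subgroupOf K) := by
      rw [Subgroup.mem_subgroupOf]
      intro h'
      exact hxH (by simpa using H.inv_mem h')
    have hb : ¬ ((⟨k, hk⟩ : K) ∈ H.subgroupOf K) := by
      rw [Subgroup.mem_subgroupOf]
      exact hkH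
    have h' : (⟨x⁻¹, K.inv_mem hxK⟩ : K) * ⟨k, hk⟩ ∈ H.subgroupOf K :=
      h.mpr ⟨fun h1 => absurd h1 ha, fun h1 => absurd h1 hb⟩
    rw [Subgroup.mem_subgroupOf] at h'
    exact h'

theorem pkgDih : PkgDih.{u} := by
  intro T _ _ hT W hW hA hexp
  have hWn : W.Normal := hA.Wn
  have h12 : Subgroup.upperCentralSeries T 1 ≤ Subgroup.upperCentralSeries T 2 :=
    Subgroup.upperCentralSeries_mono T (by norm_num)
  have h23 : Subgroup.upperCentralSeries T 2 ≤ Subgroup.upperCentralSeries T 3 :=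
    Subgroup.upperCentralSeries_mono T (by norm_num)
  have c1 := hA.c1
  have c2 := hA.c2
  have c3 := hA.c3
  obtain ⟨x1, hx1, hx1ne⟩ : ∃ x ∈ Subgroup.upperCentralSeries T 1, x ≠ 1 := by
    by_contra hcon
    push Not at hcon
    have h : Subgroup.upperCentralSeries T 1 = ⊥ := by
      rw [eq_bot_iff]
      intro x hx
      exact Subgroup.mem_bot.mpr (hcon x hx)
    rw [h] at c1
    simp at c1
  obtain ⟨x2, hx2, hx2n⟩ : ∃ x ∈ Subgroup.upperCentralSeries T 2,
      x ∉ Subgroup.upperCentralSeries T 1 := by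
    by_contra hcon
    push Not at hcon
    have h : Subgroup.upperCentralSeries T 2 = Subgroup.upperCentralSeries T 1 :=
      le_antisymm hcon h12
    rw [h, c1] at c2
    omega
  obtain ⟨x3, hx3, hx3n⟩ : ∃ x ∈ Subgroup.upperCentralSeries T 3,
      x ∉ Subgroup.upperCentralSeries T 2 := by
    by_contra hcon
    push Not at hcon
    have h : Subgroup.upperCentralSeries T 3 = Subgroup.upperCentralSeries T 2 :=
      le_antisymm hcon h23
    rw [h, c2] at c3
    omega
  have hx1c : ∀ t : T, t * x1 = x1 * t := by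
    have h : x1 ∈ Subgroup.center T := by
      rw [← Subgroup.upperCentralSeries_one]
      exact hx1
    exact fun t => Subgroup.mem_center_iff.mp h t
  have e1 : x1 * x1 = 1 := by
    have h := hexp x1 (h23 (h12 hx1))
    rwa [pow_two] at h
  have e2 : x2 * x2 = 1 := by
    have h := hexp x2 (h23 hx2)
    rwa [pow_two] at h
  -- structure of `Z₁`, `Z₂`, `Z₃`
  have s1 : ∀ z ∈ Subgroup.upperCentralSeries T 1, z = 1 ∨ z = x1 := by
    intro z hz
    have h := mem_or_of_card_two_mul (H := (⊥ : Subgroup T))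
      (K := Subgroup.upperCentralSeries T 1) bot_le (by rw [c1]; simp) hx1
      (by simpa using hx1ne) z hz
    rcases h with h | h
    · left
      simpa using h
    · right
      have h' : x1⁻¹ * z = 1 := by simpa using h
      calc z = x1 * (x1⁻¹ * z) := by group
        _ = x1 := by rw [h', mul_one]
  have s2 : ∀ z ∈ Subgroup.upperCentralSeries T 2,
      z ∈ Subgroup.upperCentralSeries T 1 ∨ x2⁻¹ * z ∈ Subgroup.upperCentralSeries T 1 :=
    mem_or_of_card_two_mul h12 (by rw [c2, c1]) hx2 hx2n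
  have s3 : ∀ z ∈ Subgroup.upperCentralSeries T 3,
      z ∈ Subgroup.upperCentralSeries T 2 ∨ x3⁻¹ * z ∈ Subgroup.upperCentralSeries T 2 :=
    mem_or_of_card_two_mul h23 (by rw [c3, c2]) hx3 hx3n
  -- a subgroup containing `x₁, x₂, x₃` contains `Z₃`
  have hF : ∀ F : Subgroup T, x1 ∈ F → x2 ∈ F → x3 ∈ F → Subgroup.upperCentralSeries T 3 ≤ F := by
    intro F f1 f2 f3
    have g1 : Subgroup.upperCentralSeries T 1 ≤ F := by
      intro z hz
      rcases s1 z hz with rfl | rfl
      · exact F.one_mem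
      · exact f1
    have g2 : Subgroup.upperCentralSeries T 2 ≤ F := by
      intro z hz
      rcases s2 z hz with h | h
      · exact g1 h
      · have h' : z = x2 * (x2⁻¹ * z) := by group
        rw [h']
        exact F.mul_mem f2 (g1 h)
    intro z hz
    rcases s3 z hz with h | h
    · exact g2 h
    · have h' : z = x3 * (x3⁻¹ * z) := by group
      rw [h']
      exact F.mul_mem f3 (g2 h)
  -- membership in `W`
  have memW : ∀ t : T, t * x2 * t⁻¹ = x2 → t * x3 * t⁻¹ = x3 → t ∈ W := by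
    intro t t2 t3
    rw [hW, Subgroup.mem_centralizer_iff]
    have hle := hF (Subgroup.centralizer ({t} : Set T))
      (by
        rw [Subgroup.mem_centralizer_iff]
        intro y hy
        rw [Set.mem_singleton_iff] at hy
        subst hy
        exact hx1c y)
      (by
        rw [Subgroup.mem_centralizer_iff]
        intro y hy
        rw [Set.mem_singleton_iff] at hy
        subst hy
        calc y * x2 = (y * x2 * y⁻¹) * y := by group
          _ = x2 * y := by rw [t2])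
      (by
        rw [Subgroup.mem_centralizer_iff]
        intro y hy
        rw [Set.mem_singleton_iff] at hy
        subst hy
        calc y * x3 = (y * x3 * y⁻¹) * y := by group
          _ = x3 * y := by rw [t3])
    intro z hz
    have h := Subgroup.mem_centralizer_iff.mp (hle hz) t (Set.mem_singleton t)
    exact h.symm
  have Wcomm : ∀ w ∈ W, ∀ z ∈ Subgroup.upperCentralSeries T 3, w * z * w⁻¹ = z := by
    intro w hw z hz
    rw [hW, Subgroup.mem_centralizer_iff] at hw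
    have h := hw z hz
    calc w * z * w⁻¹ = (z * w) * w⁻¹ := by rw [h]
      _ = z := by group
  -- the commutator data
  have d2 : ∀ t : T, t * x2 * t⁻¹ * x2⁻¹ ∈ Subgroup.upperCentralSeries T 1 := by
    intro t
    have h := (Subgroup.mem_upperCentralSeries_succ_iff (n := 1)).mp hx2 t
    rw [commutatorElement_def] at h
    have h' := Subgroup.inv_mem _ h
    have e : (x2 * t * x2⁻¹ * t⁻¹)⁻¹ = t * x2 * t⁻¹ * x2⁻¹ := by group
    rwa [e] at h'
  have d3 : ∀ t : T, t * x3 * t⁻¹ * x3⁻¹ ∈ Subgroup.upperCentralSeries T 2 := by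
    intro t
    have h := (Subgroup.mem_upperCentralSeries_succ_iff (n := 2)).mp hx3 t
    rw [commutatorElement_def] at h
    have h' := Subgroup.inv_mem _ h
    have e : (x3 * t * x3⁻¹ * t⁻¹)⁻¹ = t * x3 * t⁻¹ * x3⁻¹ := by group
    rwa [e] at h'
  let g : T → T × T := fun t => (t * x2 * t⁻¹ * x2⁻¹, t * x3 * t⁻¹ * x3⁻¹)
  have hg : ∀ t t' : T, t⁻¹ * t' ∈ W → g t = g t' := by
    intro t t' h
    have k2 := Wcomm _ h x2 (h23 hx2)
    have k3 := Wcomm _ h x3 hx3
    have q2 : t' * x2 * t'⁻¹ = t * x2 * t⁻¹ := by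
      calc t' * x2 * t'⁻¹ = t * ((t⁻¹ * t') * x2 * (t⁻¹ * t')⁻¹) * t⁻¹ := by group
        _ = t * x2 * t⁻¹ := by rw [k2]
    have q3 : t' * x3 * t'⁻¹ = t * x3 * t⁻¹ := by
      calc t' * x3 * t'⁻¹ = t * ((t⁻¹ * t') * x3 * (t⁻¹ * t')⁻¹) * t⁻¹ := by group
        _ = t * x3 * t⁻¹ := by rw [k3]
    show (t * x2 * t⁻¹ * x2⁻¹, t * x3 * t⁻¹ * x3⁻¹) = (t' * x2 * t'⁻¹ * x2⁻¹, t' * x3 * t'⁻¹ * x3⁻¹)
    rw [q2, q3]
  have hg' : ∀ t t' : T, g t = g t' → t⁻¹ * t' ∈ W := by
    intro t t' h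
    have h2 : t * x2 * t⁻¹ * x2⁻¹ = t' * x2 * t'⁻¹ * x2⁻¹ := congrArg Prod.fst h
    have h3 : t * x3 * t⁻¹ * x3⁻¹ = t' * x3 * t'⁻¹ * x3⁻¹ := congrArg Prod.snd h
    have q2 : t * x2 * t⁻¹ = t' * x2 * t'⁻¹ := by
      have := congrArg (fun y => y * x2) h2
      simpa using this
    have q3 : t * x3 * t⁻¹ = t' * x3 * t'⁻¹ := by
      have := congrArg (fun y => y * x3) h3
      simpa using this
    apply memW
    · calc t⁻¹ * t' * x2 * (t⁻¹ * t')⁻¹ = t⁻¹ * (t' * x2 * t'⁻¹) * t := by group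
        _ = t⁻¹ * (t * x2 * t⁻¹) * t := by rw [q2]
        _ = x2 := by group
    · calc t⁻¹ * t' * x3 * (t⁻¹ * t')⁻¹ = t⁻¹ * (t' * x3 * t'⁻¹) * t := by group
        _ = t⁻¹ * (t * x3 * t⁻¹) * t := by rw [q3]
        _ = x3 := by group
  let gbar : T ⧸ W → T × T :=
    Quotient.lift g (fun t t' h => hg t t' (QuotientGroup.leftRel_apply.mp h))
  have hgbar : ∀ t : T, gbar (QuotientGroup.mk t) = g t := fun t => rfl
  have hinj : Function.Injective gbar := by
    intro q q' h
    induction q using QuotientGroup.induction_on with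
    | H t =>
      induction q' using QuotientGroup.induction_on with
      | H t' =>
        rw [hgbar, hgbar] at h
        exact QuotientGroup.eq.mpr (hg' t t' h)
  have hsub : Set.range gbar ⊆
      ((Subgroup.upperCentralSeries T 1 : Subgroup T) : Set T) ×ˢ
        ((Subgroup.upperCentralSeries T 2 : Subgroup T) : Set T) := by
    rintro _ ⟨q, rfl⟩
    induction q using QuotientGroup.induction_on with
    | H t =>
      rw [hgbar]
      exact Set.mem_prod.mpr ⟨d2 t, d3 t⟩
  have hn1 : (((Subgroup.upperCentralSeries T 1 : Subgroup T) : Set T)).ncard = 2 := by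
    rw [← Nat.card_coe_set_eq]
    exact c1
  have hn2 : (((Subgroup.upperCentralSeries T 2 : Subgroup T) : Set T)).ncard = 4 := by
    rw [← Nat.card_coe_set_eq]
    exact c2
  have hcardQ : Nat.card (T ⧸ W) = 8 := by
    rw [← Subgroup.index_eq_card]
    exact hA.idx
  have hrange : Set.range gbar =
      ((Subgroup.upperCentralSeries T 1 : Subgroup T) : Set T) ×ˢ
        ((Subgroup.upperCentralSeries T 2 : Subgroup T) : Set T) := by
    apply Set.eq_of_subset_of_ncard_le hsub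
    rw [Set.ncard_prod, hn1, hn2, ← Set.image_univ, Set.ncard_image_of_injective _ hinj,
      Set.ncard_univ, hcardQ]
  have hex : ∀ u ∈ Subgroup.upperCentralSeries T 1, ∀ v ∈ Subgroup.upperCentralSeries T 2,
      ∃ t : T, t * x2 * t⁻¹ * x2⁻¹ = u ∧ t * x3 * t⁻¹ * x3⁻¹ = v := by
    intro u hu v hv
    have hmem : (u, v) ∈ Set.range gbar := by
      rw [hrange]
      exact Set.mem_prod.mpr ⟨hu, hv⟩
    obtain ⟨q, hq⟩ := hmem
    induction q using QuotientGroup.induction_on with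
    | H t =>
      rw [hgbar] at hq
      exact ⟨t, congrArg Prod.fst hq, congrArg Prod.snd hq⟩
  obtain ⟨a, ha2, ha3⟩ := hex x1 hx1 x2 hx2
  obtain ⟨b, hb2, hb3⟩ := hex x1 hx1 1 (Subgroup.one_mem _)
  -- conjugation formulas
  have cj1 : ∀ t : T, MulAut.conj t x1 = x1 := by
    intro t
    rw [MulAut.conj_apply, hx1c t]
    group
  have A2 : MulAut.conj a x2 = x1 * x2 := by
    rw [MulAut.conj_apply]
    calc a * x2 * a⁻¹ = (a * x2 * a⁻¹ * x2⁻¹) * x2 := by group
      _ = x1 * x2 := by rw [ha2]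
  have A3 : MulAut.conj a x3 = x2 * x3 := by
    rw [MulAut.conj_apply]
    calc a * x3 * a⁻¹ = (a * x3 * a⁻¹ * x3⁻¹) * x3 := by group
      _ = x2 * x3 := by rw [ha3]
  have B2 : MulAut.conj b x2 = x1 * x2 := by
    rw [MulAut.conj_apply]
    calc b * x2 * b⁻¹ = (b * x2 * b⁻¹ * x2⁻¹) * x2 := by group
      _ = x1 * x2 := by rw [hb2]
  have B3 : MulAut.conj b x3 = x3 := by
    rw [MulAut.conj_apply]
    calc b * x3 * b⁻¹ = (b * x3 * b⁻¹ * x3⁻¹) * x3 := by group
      _ = x3 := by rw [hb3, one_mul]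
  have r1 : x1 * (x1 * x2) = x2 := by rw [← mul_assoc, e1, one_mul]
  have r2 : x1 * x2 * (x2 * x3) = x1 * x3 := by
    rw [mul_assoc x1, ← mul_assoc x2, e2, one_mul]
  have r3 : x1 * (x1 * x3) = x3 := by rw [← mul_assoc, e1, one_mul]
  have AA2 : MulAut.conj (a * a) x2 = x2 := by
    rw [map_mul, MulAut.mul_apply, A2, map_mul, cj1, A2, r1]
  have AA3 : MulAut.conj (a * a) x3 = x1 * x3 := by
    rw [map_mul, MulAut.mul_apply, A3, map_mul, A2, A3, r2]
  have A42 : MulAut.conj (a * a * (a * a)) x2 = x2 := by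
    rw [map_mul, MulAut.mul_apply, AA2, AA2]
  have A43 : MulAut.conj (a * a * (a * a)) x3 = x3 := by
    rw [map_mul, MulAut.mul_apply, AA3, map_mul, cj1, AA3, r3]
  have BB2 : MulAut.conj (b * b) x2 = x2 := by
    rw [map_mul, MulAut.mul_apply, B2, map_mul, cj1, B2, r1]
  have BB3 : MulAut.conj (b * b) x3 = x3 := by
    rw [map_mul, MulAut.mul_apply, B3, B3]
  have BA2 : MulAut.conj (b * a) x2 = x2 := by
    rw [map_mul, MulAut.mul_apply, A2, map_mul, cj1, B2, r1]
  have BA3 : MulAut.conj (b * a) x3 = x1 * x2 * x3 := by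
    rw [map_mul, MulAut.mul_apply, A3, map_mul, B2, B3]
  have R2 : MulAut.conj (b * a * (b * a)) x2 = x2 := by
    rw [map_mul, MulAut.mul_apply, BA2, BA2]
  have R3 : MulAut.conj (b * a * (b * a)) x3 = x3 := by
    rw [map_mul, MulAut.mul_apply, BA3, map_mul, map_mul, cj1, BA2, BA3]
    calc x1 * x2 * (x1 * x2 * x3) = (x1 * x2) * (x1 * x2) * x3 := by group
      _ = x3 := by
        have h : x1 * x2 * (x1 * x2) = 1 := by
          have hc := hx1c x2
          calc x1 * x2 * (x1 * x2) = x1 * (x2 * x1) * x2 := by group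
            _ = x1 * (x1 * x2) * x2 := by rw [hc]
            _ = (x1 * x1) * (x2 * x2) := by group
            _ = 1 := by rw [e1, e2, one_mul]
        rw [h, one_mul]
  -- facts in the quotient
  have hx3x1 : x1 * x3 ≠ x3 := by
    intro h
    apply hx1ne
    calc x1 = (x1 * x3) * x3⁻¹ := by group
      _ = 1 := by rw [h]; group
  have qa4 : ((a : T ⧸ W)) ^ 4 = 1 := by
    have h : a * a * (a * a) ∈ W := memW _ (by rw [← MulAut.conj_apply]; exact A42)
      (by rw [← MulAut.conj_apply]; exact A43)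
    have h' : ((a * a * (a * a) : T) : T ⧸ W) = 1 := (QuotientGroup.eq_one_iff _).mpr h
    have e : (a : T ⧸ W) ^ 4 = ((a * a * (a * a) : T) : T ⧸ W) := by
      simp only [QuotientGroup.mk_mul, pow_succ, pow_zero, one_mul, mul_assoc]
    rw [e, h']
  have qa2 : ¬ ((a : T ⧸ W)) ^ 2 = 1 := by
    intro h
    have e : (a : T ⧸ W) ^ 2 = ((a * a : T) : T ⧸ W) := by
      rw [QuotientGroup.mk_mul, pow_two]
    rw [e] at h
    have hw : a * a ∈ W := (QuotientGroup.eq_one_iff _).mp h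
    have h3 := Wcomm _ hw x3 hx3
    rw [← MulAut.conj_apply, AA3] at h3
    exact hx3x1 h3
  have qb : (b : T ⧸ W) * (b : T ⧸ W) = 1 := by
    have h : b * b ∈ W := memW _ (by rw [← MulAut.conj_apply]; exact BB2)
      (by rw [← MulAut.conj_apply]; exact BB3)
    rw [← QuotientGroup.mk_mul]
    exact (QuotientGroup.eq_one_iff _).mpr h
  have qba : (b : T ⧸ W) * (a : T ⧸ W) * ((b : T ⧸ W) * (a : T ⧸ W)) = 1 := by
    have h : b * a * (b * a) ∈ W := memW _ (by rw [← MulAut.conj_apply]; exact R2)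
      (by rw [← MulAut.conj_apply]; exact R3)
    rw [← QuotientGroup.mk_mul, ← QuotientGroup.mk_mul]
    exact (QuotientGroup.eq_one_iff _).mpr h
  have qbinv : ((b : T ⧸ W))⁻¹ = (b : T ⧸ W) := inv_eq_of_mul_eq_one_left qb
  have qab : (b : T ⧸ W) * (a : T ⧸ W) * ((b : T ⧸ W))⁻¹ = ((a : T ⧸ W))⁻¹ := by
    rw [qbinv]
    apply eq_inv_of_mul_eq_one_left
    calc (b : T ⧸ W) * (a : T ⧸ W) * (b : T ⧸ W) * (a : T ⧸ W)
        = (b : T ⧸ W) * (a : T ⧸ W) * ((b : T ⧸ W) * (a : T ⧸ W)) := by group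
      _ = 1 := qba
  have qord : orderOf (a : T ⧸ W) = 4 := by
    have : Fact (Nat.Prime 2) := ⟨Nat.prime_two⟩
    have h := orderOf_eq_prime_pow (x := (a : T ⧸ W)) (n := 1) (p := 2)
      (by simpa using qa2) (by simpa using qa4)
    simpa using h
  have qnot : (b : T ⧸ W) ∉ Subgroup.zpowers (a : T ⧸ W) := by
    intro h
    obtain ⟨k, hk⟩ := Subgroup.mem_zpowers_iff.mp h
    have hcomm : (b : T ⧸ W) * (a : T ⧸ W) = (a : T ⧸ W) * (b : T ⧸ W) := by
      rw [← hk]
      exact ((Commute.refl (a : T ⧸ W)).zpow_left k).eq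
    have h1 : (b : T ⧸ W) * (a : T ⧸ W) * ((b : T ⧸ W))⁻¹ = (a : T ⧸ W) := by
      rw [hcomm]
      group
    rw [qab] at h1
    apply qa2
    rw [pow_two]
    calc (a : T ⧸ W) * (a : T ⧸ W) = ((a : T ⧸ W))⁻¹ * (a : T ⧸ W) := by rw [h1]
      _ = 1 := by group
  have hinjφ := Cfsg.Agent.Lib.Helper46.dihedralLift_injective (n := 4)
    (a : T ⧸ W) (b : T ⧸ W) qa4 qb qab qord qnot
  have hbij : Function.Bijective
      (Cfsg.Agent.Lib.Helper46.dihedralLift (n := 4) (a : T ⧸ W) (b : T ⧸ W) qa4 qb qab) := by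
    apply Function.Injective.bijective_of_nat_card_le hinjφ
    rw [hcardQ, DihedralGroup.nat_card]
  exact ⟨hWn, ⟨(MulEquiv.ofBijective _ hbij).symm⟩⟩

end Cfsg.Agent.Lib.Helper6.RUW
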